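import Mathlib

set_option autoImplicit false

/-! Windows of a sequence generating `p`-groups: the basic calculus behind Glauberman's theorem on
isomorphic subgroups of index `p`. -/

namespace Cfsg.Agent.FGS79

variable {G : Type*} [Group G]

/-- The subgroup generated by the terms `x i` with `a ≤ i < b`. -/
def win (x : ℤ → G) (a b : ℤ) : Subgroup G := Subgroup.closure (x '' Set.Ico a b)

/-- Windows of length at most `t` have order `p ^ length`, and `σ` shifts the sequence. -/
structure IsWindow (x : ℤ → G) (p t : ℕ) (σ : MulAut G) : Prop where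
  prime : p.Prime
  shift : ∀ i, σ (x i) = x (i + 1)
  card : ∀ a b : ℤ, a ≤ b → b ≤ a + t → Nat.card (win x a b) = p ^ (b - a).toNat

section basic

variable (x : ℤ → G)

theorem mem_win {a b i : ℤ} (ha : a ≤ i) (hb : i < b) : x i ∈ win x a b :=
  Subgroup.subset_closure ⟨i, ⟨ha, hb⟩, rfl⟩

theorem win_le {a b : ℤ} {H : Subgroup G} (h : ∀ i, a ≤ i → i < b → x i ∈ H) : win x a b ≤ H := by
  rw [win, Subgroup.closure_le]
  rintro _ ⟨i, hi, rfl⟩
  exact h i hi.1 hi.2

theorem win_mono {a b c d : ℤ} (h1 : c ≤ a) (h2 : b ≤ d) : win x a b ≤ win x c d :=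
  win_le x fun _ h3 h4 => mem_win x (h1.trans h3) (lt_of_lt_of_le h4 h2)

theorem win_eq_bot {a b : ℤ} (h : b ≤ a) : win x a b = ⊥ :=
  le_bot_iff.1 (win_le x fun i h1 h2 => absurd (h1.trans_lt h2) (not_lt.2 h))

theorem win_succ_right {a b : ℤ} (h : a ≤ b) :
    win x a (b + 1) = win x a b ⊔ Subgroup.zpowers (x b) := by
  refine le_antisymm (win_le x fun i h1 h2 => ?_)
    (sup_le (win_mono x le_rfl (by omega)) (Subgroup.zpowers_le.2 (mem_win x h (by omega))))
  rcases lt_or_eq_of_le (Int.lt_add_one_iff.1 h2) with h3 | rfl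
  · exact Subgroup.mem_sup_left (mem_win x h1 h3)
  · exact Subgroup.mem_sup_right (Subgroup.mem_zpowers _)

theorem win_succ_left {a b : ℤ} (h : a < b) :
    win x a b = Subgroup.zpowers (x a) ⊔ win x (a + 1) b := by
  refine le_antisymm (win_le x fun i h1 h2 => ?_)
    (sup_le (Subgroup.zpowers_le.2 (mem_win x le_rfl h)) (win_mono x (by omega) le_rfl))
  rcases eq_or_lt_of_le h1 with rfl | h3
  · exact Subgroup.mem_sup_left (Subgroup.mem_zpowers _)
  · exact Subgroup.mem_sup_right (mem_win x (by omega) h2)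

theorem commute_win {a b : ℤ} {z : G} (h : ∀ i, a ≤ i → i < b → Commute z (x i)) {w : G}
    (hw : w ∈ win x a b) : Commute z w :=
  (Subgroup.mem_centralizer_singleton_iff.1
    (win_le x (H := Subgroup.centralizer {z})
      (fun i h1 h2 => Subgroup.mem_centralizer_singleton_iff.2 (h i h1 h2).symm.eq) hw)).symm

theorem map_win {σ : MulAut G} (hs : ∀ i, σ (x i) = x (i + 1)) (a b : ℤ) :
    (win x a b).map σ.toMonoidHom = win x (a + 1) (b + 1) := by
  rw [win, win, MonoidHom.map_closure, Set.image_image]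
  congr 1
  ext z
  constructor
  · rintro ⟨i, hi, rfl⟩
    exact ⟨i + 1, ⟨by have := hi.1; omega, by have := hi.2; omega⟩, (hs i).symm⟩
  · rintro ⟨i, hi, rfl⟩
    refine ⟨i - 1, ⟨by have := hi.1; omega, by have := hi.2; omega⟩, ?_⟩
    show σ (x (i - 1)) = x i
    rw [hs, sub_add_cancel]

theorem zpow_apply {σ : MulAut G} (hs : ∀ i, σ (x i) = x (i + 1)) (l i : ℤ) :
    (σ ^ l) (x i) = x (i + l) := by
  induction l using Int.induction_on generalizing i with
  | zero => simp
  | succ l ih =>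
    rw [zpow_add_one, MulAut.mul_apply, hs, ih]
    congr 1; ring
  | pred l ih =>
    rw [zpow_sub_one, MulAut.mul_apply]
    have h : σ⁻¹ (x i) = x (i - 1) := by
      conv_lhs => rw [show i = i - 1 + 1 by ring, ← hs]
      exact σ.symm_apply_apply _
    rw [h, ih]
    congr 1; ring

theorem map_win_zpow {σ : MulAut G} (hs : ∀ i, σ (x i) = x (i + 1)) (a b l : ℤ) :
    (win x a b).map (σ ^ l).toMonoidHom = win x (a + l) (b + l) := by
  rw [win, win, MonoidHom.map_closure, Set.image_image]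
  congr 1
  ext z
  constructor
  · rintro ⟨i, hi, rfl⟩
    exact ⟨i + l, ⟨by have := hi.1; omega, by have := hi.2; omega⟩, (zpow_apply x hs l i).symm⟩
  · rintro ⟨i, hi, rfl⟩
    refine ⟨i - l, ⟨by have := hi.1; omega, by have := hi.2; omega⟩, ?_⟩
    show (σ ^ l) (x (i - l)) = x i
    rw [zpow_apply x hs, sub_add_cancel]

end basic

namespace IsWindow

variable {x : ℤ → G} {p t : ℕ} {σ : MulAut G} (W : IsWindow x p t σ)
include W

theorem isPGroup {a b : ℤ} (h : a ≤ b) (h' : b ≤ a + t) : IsPGroup p (win x a b) :=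
  IsPGroup.of_card (W.card a b h h')

theorem notMem_right {a b : ℤ} (h : a ≤ b) (h' : b + 1 ≤ a + t) : x b ∉ win x a b := by
  intro hb
  have h1 : win x a (b + 1) = win x a b := by
    rw [win_succ_right x h]; exact sup_eq_left.2 (Subgroup.zpowers_le.2 hb)
  have h2 := W.card a (b + 1) (by omega) h'
  rw [h1, W.card a b h (by omega)] at h2
  have := Nat.pow_right_injective W.prime.two_le h2
  omega

theorem notMem_left {a b : ℤ} (h : a < b) (h' : b ≤ a + t) : x a ∉ win x (a + 1) b := by
  intro ha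
  have h1 : win x a b = win x (a + 1) b := by
    rw [win_succ_left x h]; exact sup_eq_right.2 (Subgroup.zpowers_le.2 ha)
  have h2 := W.card a b h.le h'
  rw [h1, W.card (a + 1) b (by omega) (by omega)] at h2
  have := Nat.pow_right_injective W.prime.two_le h2
  omega

theorem orderOf_eq (ht : 1 ≤ t) (i : ℤ) : orderOf (x i) = p := by
  rw [← Nat.card_zpowers]
  have h : win x i (i + 1) = Subgroup.zpowers (x i) := by
    rw [win_succ_right x le_rfl, win_eq_bot x le_rfl, bot_sup_eq]
  rw [← h, W.card i (i + 1) (by omega) (by omega)]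
  simp

theorem pow_self (ht : 1 ≤ t) (i : ℤ) : x i ^ p = 1 := by
  rw [← W.orderOf_eq ht i]; exact pow_orderOf_eq_one _

theorem zpow_eq_one (ht : 1 ≤ t) {i : ℤ} {H : Subgroup G} (hH : x i ∉ H) {e : ℤ}
    (he : x i ^ e ∈ H) : x i ^ e = 1 := by
  by_contra hne
  apply hH
  have hcop : Int.gcd e p = 1 := by
    have h1 : Int.gcd e p ∣ p := Int.natCast_dvd_natCast.mp (Int.gcd_dvd_right e p)
    rcases (Nat.dvd_prime W.prime).1 h1 with h2 | h2
    · exact h2
    · exfalso; apply hne
      rw [← orderOf_dvd_iff_zpow_eq_one, W.orderOf_eq ht, ← h2]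
      exact Int.gcd_dvd_left e p
  have hb : x i = (x i ^ e) ^ Int.gcdA e p := by
    calc x i = x i ^ (Int.gcd e p : ℤ) := by rw [hcop]; simp
      _ = (x i ^ e) ^ Int.gcdA e p * ((x i) ^ p) ^ Int.gcdB e p := by
        rw [Int.gcd_eq_gcd_ab, zpow_add, zpow_mul, zpow_mul, zpow_natCast]
      _ = _ := by rw [W.pow_self ht, one_zpow, mul_one]
  rw [hb]
  exact zpow_mem he _

theorem le_normalizer [Finite G] {a b c d : ℤ} (hcd : c ≤ d) (hac : a ≤ c) (hdb : d ≤ b)
    (hlen : (d - c) + 1 = b - a) (hb : b ≤ a + t) :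
    win x a b ≤ Subgroup.normalizer (win x c d : Set G) := by
  have hle := win_mono x hac hdb
  refine (Subgroup.normal_subgroupOf_iff_le_normalizer hle).1 ?_
  have hK := W.card c d hcd (by omega)
  have hH := W.card a b (by omega) hb
  have hidx : ((win x c d).subgroupOf (win x a b)).index = p := by
    have h := ((win x c d).subgroupOf (win x a b)).card_mul_index
    rw [Nat.card_congr (Subgroup.subgroupOfEquivOfLe hle).toEquiv, hK, hH,
      show (b - a).toNat = (d - c).toNat + 1 by omega, pow_succ] at h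
    exact Nat.eq_of_mul_eq_mul_left (pow_pos W.prime.pos _) h
  refine Subgroup.normal_of_index_eq_minFac_card ?_
  rw [hidx, hH, Nat.pow_minFac (by omega), W.prime.minFac_eq]

theorem split_right [Finite G] {a b : ℤ} (h : a ≤ b) (h' : b + 1 ≤ a + t) {z : G}
    (hz : z ∈ win x a (b + 1)) : ∃ v ∈ win x a b, ∃ e : ℤ, z = v * x b ^ e := by
  have hN : Subgroup.zpowers (x b) ≤ Subgroup.normalizer (win x a b : Set G) :=
    Subgroup.zpowers_le.2 (W.le_normalizer h le_rfl (by omega) (by omega) h' (mem_win x h (by omega)))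
  rw [win_succ_right x h, ← SetLike.mem_coe,
    Subgroup.coe_mul_of_right_le_normalizer_left _ _ hN] at hz
  obtain ⟨v, hv, _, ⟨e, rfl⟩, rfl⟩ := hz
  exact ⟨v, hv, e, rfl⟩

theorem split_left [Finite G] {a b : ℤ} (h : a < b) (h' : b ≤ a + t) {z : G}
    (hz : z ∈ win x a b) : ∃ e : ℤ, ∃ v ∈ win x (a + 1) b, z = x a ^ e * v := by
  have hN : Subgroup.zpowers (x a) ≤ Subgroup.normalizer (win x (a + 1) b : Set G) :=
    Subgroup.zpowers_le.2 (W.le_normalizer (by omega) (by omega) le_rfl (by omega) h'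
      (mem_win x le_rfl h))
  rw [win_succ_left x h, ← SetLike.mem_coe,
    Subgroup.coe_mul_of_left_le_normalizer_right _ _ hN] at hz
  obtain ⟨_, ⟨e, rfl⟩, v, hv, rfl⟩ := hz
  exact ⟨e, v, hv, rfl⟩

theorem inf_consecutive [Finite G] : ∀ (m : ℕ) {a b c : ℤ}, b = a + m → b ≤ c → c ≤ a + t →
    win x a b ⊓ win x b c = ⊥
  | 0, a, b, c, hb, _, _ => by rw [win_eq_bot x (by omega), bot_inf_eq]
  | m + 1, a, b, c, hb, hc, hct => by
    refine eq_bot_iff.2 fun z hz => ?_
    obtain ⟨e, v, hv, rfl⟩ := W.split_left (by omega) (by omega) hz.1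
    have h1 : x a ^ e = 1 := by
      refine W.zpow_eq_one (by omega) (W.notMem_left (by omega) hct) ?_
      have h2 := mul_mem (win_mono x (by omega : a + 1 ≤ b) le_rfl hz.2)
        (inv_mem (win_mono x le_rfl hc hv))
      simpa using h2
    rw [h1, one_mul] at hz ⊢
    rw [← inf_consecutive m (a := a + 1) (b := b) (c := c) (by omega) hc (by omega)]
    exact ⟨hv, hz.2⟩

end IsWindow

end Cfsg.Agent.FGS79
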