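import Mathlib
import Cfsg.Agent.FGS79.Window

set_option autoImplicit false

/-! Glauberman's theorem on isomorphic subgroups of index `p`: the order is at most `p ^ (3n)`. -/

namespace Cfsg.Agent.FGS79

variable {G : Type*} [Group G]

/-- The decreasing chain attached to `P` and an automorphism. -/
def chain (σ : MulAut G) (P : Subgroup G) : ℕ → Subgroup G
  | 0 => P
  | m + 1 => P ⊓ (chain σ P m).map σ.toMonoidHom

theorem chain_le (σ : MulAut G) (P : Subgroup G) : ∀ m, chain σ P m ≤ P
  | 0 => le_rfl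
  | _ + 1 => inf_le_left

theorem chain_antitone (σ : MulAut G) (P : Subgroup G) : Antitone (chain σ P) := by
  refine antitone_nat_of_succ_le fun m => ?_
  induction m with
  | zero => exact inf_le_left
  | succ m ih => exact inf_le_inf_left _ (Subgroup.map_mono ih)

theorem card_map_mulAut (σ : MulAut G) (H : Subgroup G) :
    Nat.card (H.map σ.toMonoidHom) = Nat.card H :=
  Subgroup.card_map_of_injective σ.injective

theorem exists_window [Finite G] {p : ℕ} (hp : p.Prime) (P : Subgroup G) (σ : MulAut G)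
    (hN : ((P ⊓ P.map σ.toMonoidHom).subgroupOf (P.map σ.toMonoidHom)).Normal)
    (hidx : (P ⊓ P.map σ.toMonoidHom).relIndex (P.map σ.toMonoidHom) = p)
    (h1 : ∀ Q : Subgroup G, Q ≤ P → (Q.subgroupOf P).Normal → Q.map σ.toMonoidHom = Q → Q = ⊥) :
    ∃ (x : ℤ → G) (t : ℕ), 1 ≤ t ∧ IsWindow x p t σ ∧ win x 0 t = P := by
  classical
  set R := chain σ P with hR
  set A : ℕ → Subgroup G := fun m => (R m).map σ.toMonoidHom with hA
  have hAle : ∀ m, A m ≤ P.map σ.toMonoidHom := fun m => Subgroup.map_mono (chain_le σ P m)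
  have hsucc : ∀ m, R (m + 1) = (P ⊓ P.map σ.toMonoidHom) ⊓ A m := by
    intro m
    show P ⊓ A m = _
    rw [inf_assoc, inf_eq_right.2 (hAle m)]
  have hstep : ∀ m, R (m + 1) = R m ∨ Nat.card (R m) = p * Nat.card (R (m + 1)) := by
    intro m
    set N := P ⊓ P.map σ.toMonoidHom with hNdef
    have hd : N.relIndex (A m) ∣ p := by
      rw [← hidx]
      have := hN
      have h := Subgroup.relIndex_dvd_index_of_normal (N.subgroupOf (P.map σ.toMonoidHom))
        ((A m).subgroupOf (P.map σ.toMonoidHom))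
      rwa [Subgroup.relIndex_subgroupOf (hAle m)] at h
    have hmul : Nat.card (R (m + 1)) * N.relIndex (A m) = Nat.card (R m) := by
      have h := ((N.subgroupOf (A m))).card_mul_index
      rw [← card_map_mulAut σ (R m), hsucc]
      refine Eq.trans ?_ h
      congr 1
      rw [← Subgroup.inf_subgroupOf_right]
      exact (Nat.card_congr (Subgroup.subgroupOfEquivOfLe inf_le_right).toEquiv).symm
    rcases (Nat.dvd_prime hp).1 hd with h | h
    · left
      rw [h, mul_one] at hmul
      exact Subgroup.eq_of_le_of_card_ge (chain_antitone σ P m.le_succ) hmul.ge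
    · right; rw [← hmul, h, mul_comm]
  have hex : ∃ m, R (m + 1) = R m := by
    by_contra hc
    push Not at hc
    have : ∀ m, Nat.card (R m) + m ≤ Nat.card P := by
      intro m
      induction m with
      | zero => exact le_rfl
      | succ m ih =>
        have h2 := (hstep m).resolve_left (hc m)
        have h3 : 2 * Nat.card (R (m + 1)) ≤ p * Nat.card (R (m + 1)) :=
          Nat.mul_le_mul_right _ hp.two_le
        have h4 : 0 < Nat.card (R (m + 1)) := Nat.card_pos
        omega
    have := this (Nat.card P + 1)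
    omega
  set t := Nat.find hex with htdef
  have hst : R (t + 1) = R t := Nat.find_spec hex
  have hlt : ∀ m < t, Nat.card (R m) = p * Nat.card (R (m + 1)) := fun m hm =>
    (hstep m).resolve_left (Nat.find_min hex hm)
  have ht : 1 ≤ t := by
    by_contra h0
    have ht0 : t = 0 := by omega
    rw [ht0] at hst
    have hle : P ≤ P.map σ.toMonoidHom := le_of_eq_of_le hst.symm inf_le_right
    have he := Subgroup.eq_of_le_of_card_ge hle (card_map_mulAut σ P).le
    rw [inf_eq_left.2 hle, ← he, Subgroup.relIndex_self] at hidx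
    exact hp.one_lt.ne hidx
  obtain ⟨y, hy, hy'⟩ : ∃ y ∈ R (t - 1), y ∉ R t := by
    by_contra hc
    push Not at hc
    have h2 : R (t - 1) = R t := le_antisymm hc (chain_antitone σ P (Nat.sub_le _ _))
    have h3 := hlt (t - 1) (by omega)
    rw [show t - 1 + 1 = t by omega, h2] at h3
    have h4 : 2 * Nat.card (R t) ≤ p * Nat.card (R t) := Nat.mul_le_mul_right _ hp.two_le
    have h5 : 0 < Nat.card (R t) := Nat.card_pos
    omega
  set x : ℤ → G := fun i => (σ ^ (i - ((t : ℤ) - 1))) y with hx
  have hshift : ∀ i, σ (x i) = x (i + 1) := by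
    intro i
    simp only [hx, ← MulAut.mul_apply]
    congr 1
    rw [show i + 1 - ((t : ℤ) - 1) = 1 + (i - ((t : ℤ) - 1)) by ring, zpow_add, zpow_one]
  have hinv : ∀ i, σ.symm (x i) = x (i - 1) := by
    intro i
    conv_lhs => rw [show i = i - 1 + 1 by ring, ← hshift]
    exact σ.symm_apply_apply _
  have hmem_succ : ∀ {m : ℕ} {z : G}, z ∈ R (m + 1) ↔ z ∈ P ∧ σ.symm z ∈ R m := by
    intro m z
    show z ∈ P ⊓ (R m).map σ.toMonoidHom ↔ _
    rw [Subgroup.mem_inf, Subgroup.mem_map_equiv]
  -- all terms `x 0, ..., x (t - 1)` lie in `P`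
  have hdown : ∀ j : ℕ, j ≤ t - 1 → x ((t : ℤ) - 1 - j) ∈ R (t - 1 - j) := by
    intro j
    induction j with
    | zero => intro _; simpa [hx] using hy
    | succ j ih =>
      intro hj
      have h := ih (by omega)
      rw [show t - 1 - j = (t - 1 - (j + 1)) + 1 by omega, hmem_succ, hinv] at h
      convert h.2 using 2
      push_cast; ring
  have hP : ∀ i : ℤ, 0 ≤ i → i < t → x i ∈ P := by
    intro i h0 h2
    obtain ⟨j, hj⟩ : ∃ j : ℕ, i = (t : ℤ) - 1 - j := ⟨((t : ℤ) - 1 - i).toNat, by omega⟩
    exact hj ▸ chain_le σ P _ (hdown j (by omega))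
  have hRmem : ∀ (m : ℕ) (i : ℤ), (∀ l : ℤ, i - m ≤ l → l ≤ i → x l ∈ P) → x i ∈ R m := by
    intro m
    induction m with
    | zero => intro i h; exact h i (by simp) le_rfl
    | succ m ih =>
      intro i h
      rw [hmem_succ, hinv]
      exact ⟨h i (by omega) le_rfl, ih _ fun l h2 h3 => h l (by push_cast at h2 ⊢; omega) (by omega)⟩
  have hneg : x (-1) ∉ P := by
    intro h
    refine hy' ?_
    have h2 := hRmem t ((t : ℤ) - 1) fun l h2 h3 => ?_
    · simpa [hx] using h2
    · rcases lt_or_eq_of_le (show (-1 : ℤ) ≤ l by omega) with h4 | rfl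
      · exact hP l (by omega) (by omega)
      · exact h
  have hnot : ∀ m : ℕ, x (m : ℤ) ∉ R (m + 1) := by
    intro m
    induction m with
    | zero =>
      intro h
      rw [hmem_succ, hinv] at h
      exact hneg (chain_le σ P 0 h.2)
    | succ m ih =>
      intro h
      rw [hmem_succ, hinv] at h
      apply ih
      convert h.2 using 2
      push_cast; ring
  -- the limit is normal in `P`
  set L := R t with hL
  have hLσ : L.map σ.toMonoidHom = L := by
    refine (Subgroup.eq_of_le_of_card_ge ?_ (card_map_mulAut σ L).le).symm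
    exact le_of_eq_of_le hst.symm inf_le_right
  have hwin : ∀ j : ℕ, j ≤ t → R (t - j) = L ⊔ win x ((t - j : ℕ) : ℤ) t := by
    intro j
    induction j with
    | zero => intro _; rw [Nat.sub_zero, win_eq_bot x le_rfl, sup_bot_eq]
    | succ j ih =>
      intro hj
      set m := t - (j + 1) with hm
      have hm1 : t - j = m + 1 := by omega
      have h := ih (by omega)
      rw [hm1] at h
      have hle : L ⊔ win x (m : ℤ) t ≤ R m := by
        refine sup_le (chain_antitone σ P (by omega)) (win_le x fun i h2 h3 => ?_)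
        exact hRmem m i fun l h4 h5 => hP l (by omega) (by omega)
      have hge : R (m + 1) ≤ L ⊔ win x (m : ℤ) t := by
        rw [h]; exact sup_le_sup_left (win_mono x (by omega) le_rfl) _
      have hne : ¬ L ⊔ win x (m : ℤ) t ≤ R (m + 1) := fun hc =>
        hnot m (hc (Subgroup.mem_sup_right (mem_win x le_rfl (by omega))))
      refine (Subgroup.eq_of_le_of_card_ge hle ?_).symm
      obtain ⟨c, hc⟩ := Subgroup.card_dvd_of_le hge
      have hd := Subgroup.card_dvd_of_le hle
      rw [hlt m (by omega), mul_comm p, hc] at hd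
      have hc1 : c ≠ 1 := fun h2 => hne (by
        rw [h2, mul_one] at hc
        exact (Subgroup.eq_of_le_of_card_ge hge hc.le).ge)
      have hcp : c = p :=
        ((Nat.dvd_prime hp).1 ((Nat.mul_dvd_mul_iff_left Nat.card_pos).1 hd)).resolve_left hc1
      rw [hlt m (by omega), hc, hcp, mul_comm]
  have hnorm : ∀ i : ℤ, x i ∈ Subgroup.normalizer (L : Set G) := by
    have hbase : x (t : ℤ) ∈ Subgroup.normalizer (L : Set G) := by
      have hxA : x (t : ℤ) ∈ A (t - 1) :=
        ⟨x ((t : ℤ) - 1), by simpa [hx] using hy,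
          show σ (x ((t : ℤ) - 1)) = x t by rw [hshift]; congr 1; ring⟩
      have hLA : L = (P ⊓ P.map σ.toMonoidHom) ⊓ A (t - 1) := by
        rw [← hsucc, show t - 1 + 1 = t by omega]
      rw [hLA]
      have hP' : x (t : ℤ) ∈ Subgroup.normalizer ((P ⊓ P.map σ.toMonoidHom : Subgroup G) : Set G) :=
        (Subgroup.normal_subgroupOf_iff_le_normalizer inf_le_right).1 hN (hAle _ hxA)
      exact Subgroup.inf_normalizer_le_normalizer_inf ⟨hP', Subgroup.le_normalizer hxA⟩
    have hiff : ∀ z, σ z ∈ L ↔ z ∈ L := by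
      intro z
      conv_lhs => rw [← hLσ, Subgroup.mem_map_equiv, MulEquiv.symm_apply_apply]
    have hnσ : ∀ z, z ∈ Subgroup.normalizer (L : Set G) ↔ σ z ∈ Subgroup.normalizer (L : Set G) := by
      intro z
      simp only [Subgroup.mem_normalizer_iff]
      constructor
      · intro h w
        obtain ⟨w, rfl⟩ := σ.surjective w
        rw [hiff, ← map_inv, ← map_mul, ← map_mul, hiff]
        exact h w
      · intro h w
        have := h (σ w)
        rwa [hiff, ← map_inv, ← map_mul, ← map_mul, hiff] at this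
    intro i
    obtain ⟨l, rfl⟩ : ∃ l, i = (t : ℤ) + l := ⟨i - t, by ring⟩
    induction l using Int.induction_on with
    | zero => simpa using hbase
    | succ l ih => rw [← add_assoc, ← hshift]; exact (hnσ _).1 ih
    | pred l ih =>
      rw [hnσ, hshift]
      convert ih using 2
      ring
  have hPwin : P = L ⊔ win x 0 t := by
    have := hwin t le_rfl
    simpa [hR, chain] using this
  have hLbot : L = ⊥ := by
    refine h1 L (chain_le σ P t) ((Subgroup.normal_subgroupOf_iff_le_normalizer (chain_le σ P t)).2 ?_)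
      hLσ
    calc P = L ⊔ win x 0 t := hPwin
      _ ≤ _ := sup_le Subgroup.le_normalizer (win_le x fun i _ _ => hnorm i)
  have hcard : ∀ j : ℕ, j ≤ t → Nat.card (win x ((t : ℤ) - j) t) = p ^ j := by
    intro j
    induction j with
    | zero => intro _; simp [win_eq_bot x]
    | succ j ih =>
      intro hj
      have h2 := hwin (j + 1) hj
      have h3 := hwin j (by omega)
      rw [hLbot, bot_sup_eq] at h2 h3
      have h4 := hlt (t - (j + 1)) (by omega)
      rw [show t - (j + 1) + 1 = t - j by omega, h2, h3, Nat.cast_sub hj,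
        Nat.cast_sub (by omega : j ≤ t), ih (by omega)] at h4
      rw [h4, pow_succ, mul_comm]
  refine ⟨x, t, ht, ⟨hp, hshift, fun a b hab hbt => ?_⟩, ?_⟩
  · obtain ⟨j, hj⟩ : ∃ j : ℕ, (b - a) = j := ⟨(b - a).toNat, by omega⟩
    have h2 := map_win_zpow x hshift ((t : ℤ) - j) t (b - t)
    rw [show (t : ℤ) - j + (b - t) = a by omega, show (t : ℤ) + (b - t) = b by omega] at h2
    rw [← h2, card_map_mulAut, hcard j (by omega), hj, Int.toNat_natCast]
  · rw [hPwin, hLbot, bot_sup_eq]

namespace IsWindow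

variable {x : ℤ → G} {p t : ℕ} {σ : MulAut G} (W : IsWindow x p t σ)
include W

theorem commute_shift {i j : ℤ} (l : ℤ) : Commute (x i) (x j) ↔ Commute (x (i + l)) (x (j + l)) := by
  constructor <;> intro h
  · have := h.map (σ ^ l).toMonoidHom
    simpa [zpow_apply x W.shift] using this
  · have := h.map (σ ^ (-l)).toMonoidHom
    simp only [MulEquiv.coe_toMonoidHom, zpow_apply x W.shift] at this
    simpa using this

/-- `k` is the least non-commuting distance. -/
theorem exists_dist : (∀ i j : ℤ, i ≤ j → j - i < t → Commute (x i) (x j)) ∨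
    ∃ k : ℕ, 1 ≤ k ∧ k < t ∧ (∀ i j : ℤ, i ≤ j → j - i < k → Commute (x i) (x j)) ∧
      ∀ i : ℤ, ¬ Commute (x i) (x (i + k)) := by
  classical
  by_cases h : ∃ d : ℕ, d < t ∧ ¬ Commute (x 0) (x (d : ℤ))
  · right
    obtain ⟨hk, hk'⟩ := Nat.find_spec h
    refine ⟨Nat.find h, ?_, hk, fun i j hij hd => ?_, fun i hc => ?_⟩
    · by_contra h0
      rw [show Nat.find h = 0 by omega] at hk'
      exact hk' (Commute.refl _)
    · obtain ⟨d, rfl⟩ : ∃ d : ℕ, j = i + d := ⟨(j - i).toNat, by omega⟩
      by_contra hne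
      refine Nat.find_min h (m := d) (by omega) ⟨by omega, fun hc => hne ?_⟩
      have := (W.commute_shift (i := 0) (j := (d : ℤ)) i).1 hc
      simpa [add_comm] using this
    · refine hk' ?_
      have := (W.commute_shift (i := i) (j := i + Nat.find h) (-i)).1 hc
      simpa using this
  · left
    push Not at h
    intro i j hij hd
    obtain ⟨d, rfl⟩ : ∃ d : ℕ, j = i + d := ⟨(j - i).toNat, by omega⟩
    have := (W.commute_shift (i := 0) (j := (d : ℤ)) i).1 (h d (by omega))
    simpa [add_comm] using this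

variable [Finite G] {k : ℕ} (hk : 1 ≤ k) (hkt : k < t)
  (hc : ∀ i j : ℤ, i ≤ j → j - i < k → Commute (x i) (x j))
  (hn : ∀ i : ℤ, ¬ Commute (x i) (x (i + k)))

omit W hk hkt hn [Finite G] in
theorem commute_of_dist {i j : ℤ} (hc : ∀ i j : ℤ, i ≤ j → j - i < k → Commute (x i) (x j))
    (h1 : i - j < k) (h2 : j - i < k) : Commute (x i) (x j) := by
  rcases le_total i j with h | h
  · exact hc i j h h2
  · exact (hc j i h h1).symm

include hk hc hn in
omit hkt in
theorem central_win (m : ℕ) (hm : k + 1 ≤ m) : m ≤ t → ∀ (a : ℤ) {z : G}, z ∈ win x a (a + m) →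
    (∀ i, a ≤ i → i < a + m → Commute z (x i)) → z ∈ win x (a + m - k) (a + k) := by
  induction m, hm using Nat.le_induction with
  | base =>
    intro hmt a z hz hcomm
    rw [show (a + ((k + 1 : ℕ) : ℤ)) = a + k + 1 by push_cast; ring] at hz hcomm ⊢
    obtain ⟨v, hv, e, rfl⟩ := W.split_right (by omega) (by omega) hz
    have hv0 : Commute v (x a) := (commute_win x (fun i h1 h2 =>
      commute_of_dist hc (i := a) (j := i) (by omega) (by omega)) hv).symm
    have h1 : x (a + k) ^ e = 1 := by
      refine W.zpow_eq_one (by omega) (H := Subgroup.centralizer {x a}) ?_ ?_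
      · exact fun h => hn a (Subgroup.mem_centralizer_singleton_iff.1 h).symm
      · refine Subgroup.mem_centralizer_singleton_iff.2 ?_
        have := hv0.inv_left.mul_left (hcomm a le_rfl (by omega))
        rw [inv_mul_cancel_left] at this
        exact this.eq
    rw [h1, mul_one] at hz hcomm ⊢
    obtain ⟨f, v', hv', rfl⟩ := W.split_left (by omega) (by omega) hv
    have hv1 : Commute v' (x (a + k)) := (commute_win x (fun i h1 h2 =>
      commute_of_dist hc (i := a + k) (j := i) (by omega) (by omega)) hv').symm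
    have h2 : x a ^ f = 1 := by
      refine W.zpow_eq_one (by omega) (H := Subgroup.centralizer {x (a + k)}) ?_ ?_
      · exact fun h => hn a (Subgroup.mem_centralizer_singleton_iff.1 h)
      · refine Subgroup.mem_centralizer_singleton_iff.2 ?_
        have := (hcomm (a + k) (by omega) (by omega)).mul_left hv1.inv_left
        rw [mul_inv_cancel_right] at this
        exact this.eq
    rw [h2, one_mul, show a + k + 1 - (k : ℤ) = a + 1 by ring]
    exact hv'
  | succ m hkm ih =>
    intro hmt a z hz hcomm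
    rw [show (a + ((m + 1 : ℕ) : ℤ)) = a + m + 1 by push_cast; ring] at hz hcomm ⊢
    obtain ⟨v, hv, e, rfl⟩ := W.split_right (by omega) (by omega) hz
    have hlen : m < 2 * k := by
      by_contra hge
      have : Nontrivial (Subgroup.center (win x a (a + m))) := by
        haveI := Fact.mk W.prime
        haveI : Nontrivial (win x a (a + m)) := by
          rw [← Finite.one_lt_card_iff_nontrivial, W.card _ _ (by omega) (by omega)]
          exact one_lt_pow₀ W.prime.one_lt (by omega)
        exact (W.isPGroup (by omega) (by omega)).center_nontrivial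
      obtain ⟨⟨⟨w, hw⟩, hwc⟩, hw1⟩ := exists_ne (1 : Subgroup.center (win x a (a + m)))
      have := ih (by omega) a hw fun i h1 h2 =>
        (congrArg Subtype.val (Subgroup.mem_center_iff.1 hwc ⟨x i, mem_win x h1 h2⟩)).symm
      rw [win_eq_bot x (by omega), Subgroup.mem_bot] at this
      exact hw1 (Subtype.ext (Subtype.ext this))
    by_cases he : x (a + m) ^ e = 1
    · rw [he, mul_one] at hcomm ⊢
      have hv' := ih (by omega) a hv fun i h1 h2 => hcomm i h1 (by omega)
      obtain ⟨f, v', hv'', rfl⟩ := W.split_left (by omega) (by omega) hv'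
      have hv1 : Commute v' (x (a + m)) := (commute_win x (fun i h1 h2 =>
        commute_of_dist hc (i := a + m) (j := i) (by omega) (by omega)) hv'').symm
      have h2 : x (a + m - k) ^ f = 1 := by
        refine W.zpow_eq_one (by omega) (H := Subgroup.centralizer {x (a + m)}) ?_ ?_
        · intro h
          refine hn (a + m - k) ?_
          rw [show a + m - k + (k : ℤ) = a + m by ring]
          exact Subgroup.mem_centralizer_singleton_iff.1 h
        · refine Subgroup.mem_centralizer_singleton_iff.2 ?_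
          have := (hcomm (a + m) (by omega) (by omega)).mul_left hv1.inv_left
          rw [mul_inv_cancel_right] at this
          exact this.eq
      rw [h2, one_mul, show a + m + 1 - (k : ℤ) = a + m - k + 1 by ring]
      exact hv''
    · exfalso
      refine hn (a + m - k) ?_
      rw [show a + m - k + (k : ℤ) = a + m by ring]
      -- the central element `x (a + m - k)` of the smaller window commutes with everything
      have hcv : Commute (x (a + m - k)) v := commute_win x (fun i h1 h2 =>
        commute_of_dist hc (by omega) (by omega)) hv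
      have hce : Commute (x (a + m - k)) (x (a + m) ^ e) := by
        have := hcv.inv_right.mul_right (hcomm (a + m - k) (by omega) (by omega)).symm
        rwa [inv_mul_cancel_left] at this
      by_contra hne
      exact he (W.zpow_eq_one (by omega) (H := Subgroup.centralizer {x (a + m - k)})
        (fun h => hne (Subgroup.mem_centralizer_singleton_iff.1 h).symm)
        (Subgroup.mem_centralizer_singleton_iff.2 hce.symm.eq))

include hk hkt hc hn in
theorem lt_two_mul : t < 2 * k := by
  by_contra hge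
  have : Nontrivial (Subgroup.center (win x 0 t)) := by
    haveI := Fact.mk W.prime
    haveI : Nontrivial (win x 0 t) := by
      rw [← Finite.one_lt_card_iff_nontrivial, W.card _ _ (by omega) (by omega)]
      exact one_lt_pow₀ W.prime.one_lt (by omega)
    exact (W.isPGroup (by omega) (by omega)).center_nontrivial
  obtain ⟨⟨⟨w, hw⟩, hwc⟩, hw1⟩ := exists_ne (1 : Subgroup.center (win x 0 t))
  have := W.central_win hk hc hn t hkt le_rfl 0 (z := w) (by simpa using hw) fun i h1 h2 =>
    (congrArg Subtype.val (Subgroup.mem_center_iff.1 hwc ⟨x i, mem_win x h1 (by simpa using h2)⟩)).symm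
  rw [win_eq_bot x (by omega), Subgroup.mem_bot] at this
  exact hw1 (Subtype.ext (Subtype.ext this))

/-- The commutator of two terms at distance `k`. -/
theorem commutator_mem_win_succ {a b : ℤ} (h : a < b) (hb : b + 1 ≤ a + t) :
    x a * x b * (x a)⁻¹ * (x b)⁻¹ ∈ win x (a + 1) b := by
  have hn1 := W.le_normalizer (a := a) (b := b + 1) (c := a + 1) (d := b + 1) (by omega) (by omega)
    le_rfl (by omega) hb
  have hn2 := W.le_normalizer (a := a) (b := b + 1) (c := a) (d := b) (by omega) le_rfl (by omega)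
    (by omega) hb
  have hxa := mem_win x (le_refl a) (show a < b + 1 by omega)
  have hxb := mem_win x (show a ≤ b by omega) (show b < b + 1 by omega)
  have hxb' := mem_win x (show a + 1 ≤ b by omega) (show b < b + 1 by omega)
  have hxa' := mem_win x (le_refl a) h
  have h1 : x a * x b * (x a)⁻¹ * (x b)⁻¹ ∈ win x (a + 1) (b + 1) :=
    mul_mem ((Subgroup.mem_normalizer_iff.1 (hn1 hxa) _).1 hxb') (inv_mem hxb')
  have h2 : x a * x b * (x a)⁻¹ * (x b)⁻¹ ∈ win x a b := by
    rw [mul_assoc, mul_assoc, ← mul_assoc (x b)]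
    exact mul_mem hxa' ((Subgroup.mem_normalizer_iff.1 (hn2 hxb) _).1 (inv_mem hxa'))
  obtain ⟨e, v, hv, hev⟩ := W.split_left h (by omega) h2
  have he : x a ^ e = 1 := by
    refine W.zpow_eq_one (by omega) (W.notMem_left (a := a) (b := b + 1) (by omega) hb) ?_
    have := mul_mem h1 (inv_mem (win_mono x le_rfl (show b ≤ b + 1 by omega) hv))
    rwa [hev, mul_inv_cancel_right] at this
  rw [hev, he, one_mul]
  exact hv

include hk hkt hc hn in
theorem commutator_mem :
    x 0 * x (k : ℤ) * (x 0)⁻¹ * (x (k : ℤ))⁻¹ ∈ win x ((t : ℤ) - k) k ∧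
      x 0 * x (k : ℤ) * (x 0)⁻¹ * (x (k : ℤ))⁻¹ ∈ win x 1 (2 * (k : ℤ) + 1 - t) := by
  have h2k := W.lt_two_mul hk hkt hc hn
  set w := x 0 * x (k : ℤ) * (x 0)⁻¹ * (x (k : ℤ))⁻¹ with hw
  have hwm : w ∈ win x 1 k := by
    simpa using W.commutator_mem_win_succ (a := 0) (b := k) (by omega) (by omega)
  have hcw : ∀ i : ℤ, 0 ≤ i → i < 1 + (k : ℤ) → Commute w (x i) := fun i h1 h2 =>
    (commute_win x (fun l h3 h4 => commute_of_dist hc (by omega) (by omega)) hwm).symm
  -- conjugation by `x j` for `0 ≤ j < t`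
  have hupper : ∀ j : ℕ, j < t → Commute w (x (j : ℤ)) := by
    intro j
    induction j using Nat.strong_induction_on with
    | _ j ih =>
      intro hjt
      by_cases hjk : j < 1 + k
      · exact hcw j (by omega) (by omega)
      have hd := W.commutator_mem_win_succ (a := 0) (b := (j : ℤ)) (by omega) (by omega)
      rw [zero_add] at hd
      set c := x 0 * x (j : ℤ) * (x 0)⁻¹ * (x (j : ℤ))⁻¹ with hcdef
      have h1 : Commute c (x (k : ℤ)) := (commute_win x (fun i h3 h4 =>
        commute_of_dist hc (by omega) (by omega)) hd).symm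
      have h2 : Commute (x (j : ℤ)) (x (k : ℤ)) := commute_of_dist hc (by omega) (by omega)
      have hj0' : x (j : ℤ) * x 0 * (x (j : ℤ))⁻¹ = c⁻¹ * x 0 := by rw [hcdef]; group
      have hkk : x (j : ℤ) * x (k : ℤ) * (x (j : ℤ))⁻¹ = x (k : ℤ) := by rw [h2.eq]; group
      have hwc : Commute w c := by
        refine commute_win x (fun i h4 h5 => ?_) hd
        obtain ⟨i, rfl⟩ := Int.eq_ofNat_of_zero_le (show 0 ≤ i by omega)
        exact ih i (by omega) (by omega)
      have h3 : x (j : ℤ) * w * (x (j : ℤ))⁻¹ = w :=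
        calc x (j : ℤ) * w * (x (j : ℤ))⁻¹
          _ = (x (j : ℤ) * x 0 * (x (j : ℤ))⁻¹) * (x (j : ℤ) * x (k : ℤ) * (x (j : ℤ))⁻¹) *
              (x (j : ℤ) * x 0 * (x (j : ℤ))⁻¹)⁻¹ * (x (j : ℤ) * x (k : ℤ) * (x (j : ℤ))⁻¹)⁻¹ := by
              rw [hw]; group
          _ = c⁻¹ * (x 0 * x (k : ℤ) * (x 0)⁻¹) * (c * (x (k : ℤ))⁻¹) := by
              rw [hj0', hkk]; group
          _ = c⁻¹ * (w * c) := by rw [h1.inv_right.eq, hw]; group
          _ = w := by rw [hwc.eq, inv_mul_cancel_left]
      exact (mul_inv_eq_iff_eq_mul.1 h3).symm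
  -- conjugation by `x j` for `k + 1 - t ≤ j < 0`
  have hlower : ∀ j : ℕ, j + k + 1 ≤ t → Commute w (x (-(j : ℤ))) := by
    intro j
    induction j using Nat.strong_induction_on with
    | _ j ih =>
      intro hjt
      by_cases hj0 : j = 0
      · subst hj0; simpa using hupper 0 (by omega)
      have hd := W.commutator_mem_win_succ (a := -(j : ℤ)) (b := (k : ℤ)) (by omega) (by omega)
      set d := x (-(j : ℤ)) * x (k : ℤ) * (x (-(j : ℤ)))⁻¹ * (x (k : ℤ))⁻¹ with hddef
      have h1 : Commute (x 0) d := commute_win x (fun i h3 h4 =>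
        commute_of_dist hc (by omega) (by omega)) hd
      have h2 : Commute (x (-(j : ℤ))) (x 0) := commute_of_dist hc (by omega) (by omega)
      have hwd : Commute w d := by
        refine commute_win x (fun i h4 h5 => ?_) hd
        rcases le_or_gt 0 i with hi | hi
        · obtain ⟨i, rfl⟩ := Int.eq_ofNat_of_zero_le hi
          exact hupper i (by omega)
        · obtain ⟨i, rfl⟩ : ∃ l : ℕ, i = -(l : ℤ) := ⟨(-i).toNat, by omega⟩
          exact ih i (by omega) (by omega)
      have h00 : x (-(j : ℤ)) * x 0 * (x (-(j : ℤ)))⁻¹ = x 0 := by rw [h2.eq]; group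
      have hk0 : x (-(j : ℤ)) * x (k : ℤ) * (x (-(j : ℤ)))⁻¹ = d * x (k : ℤ) := by rw [hddef]; group
      have h3 : x (-(j : ℤ)) * w * (x (-(j : ℤ)))⁻¹ = w :=
        calc x (-(j : ℤ)) * w * (x (-(j : ℤ)))⁻¹
          _ = (x (-(j : ℤ)) * x 0 * (x (-(j : ℤ)))⁻¹) *
              (x (-(j : ℤ)) * x (k : ℤ) * (x (-(j : ℤ)))⁻¹) *
              (x (-(j : ℤ)) * x 0 * (x (-(j : ℤ)))⁻¹)⁻¹ *
              (x (-(j : ℤ)) * x (k : ℤ) * (x (-(j : ℤ)))⁻¹)⁻¹ := by rw [hw]; group
          _ = (x 0 * d) * (x (k : ℤ) * (x 0)⁻¹ * (x (k : ℤ))⁻¹) * d⁻¹ := by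
              rw [h00, hk0]; group
          _ = d * w * d⁻¹ := by rw [h1.eq, hw]; group
          _ = w := by rw [← hwd.eq, mul_inv_cancel_right]
      exact (mul_inv_eq_iff_eq_mul.1 h3).symm
  have hwA : w ∈ win x ((t : ℤ) - k) k := by
    have := W.central_win hk hc hn t hkt le_rfl 0
      (win_mono x (by omega) (by omega) hwm : w ∈ win x 0 (0 + (t : ℤ))) fun i h1 h2 => by
        obtain ⟨i, rfl⟩ := Int.eq_ofNat_of_zero_le h1
        exact hupper i (by omega)
    simpa using this
  have hwB : w ∈ win x 1 (2 * (k : ℤ) + 1 - t) := by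
    have := W.central_win hk hc hn t hkt le_rfl ((k : ℤ) + 1 - t)
      (win_mono x (by omega) (by omega) hwm : w ∈ win x ((k : ℤ) + 1 - t) ((k : ℤ) + 1 - t + t))
      fun i h1 h2 => by
        rcases le_or_gt 0 i with hi | hi
        · obtain ⟨i, rfl⟩ := Int.eq_ofNat_of_zero_le hi
          exact hupper i (by omega)
        · obtain ⟨i, rfl⟩ : ∃ l : ℕ, i = -(l : ℤ) := ⟨(-i).toNat, by omega⟩
          exact hlower i (by omega)
    rwa [show (k : ℤ) + 1 - t + t - k = 1 by ring,
      show (k : ℤ) + 1 - t + k = 2 * (k : ℤ) + 1 - t by ring] at this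
  exact ⟨hwA, hwB⟩

include hk hkt hc hn in
theorem two_mul_le : 2 * t ≤ 3 * k := by
  by_contra hlt
  have h2k := W.lt_two_mul hk hkt hc hn
  obtain ⟨hwA, hwB⟩ := W.commutator_mem hk hkt hc hn
  refine hn 0 ?_
  rw [zero_add]
  set w := x 0 * x (k : ℤ) * (x 0)⁻¹ * (x (k : ℤ))⁻¹ with hw
  have h0 : w ∈ win x 1 ((t : ℤ) - k) ⊓ win x ((t : ℤ) - k) k :=
    ⟨win_mono x le_rfl (by omega) hwB, hwA⟩
  rw [W.inf_consecutive (t - k - 1) (by omega) (by omega) (by omega), Subgroup.mem_bot] at h0
  show x 0 * x (k : ℤ) = x (k : ℤ) * x 0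
  rwa [hw, mul_inv_eq_one, mul_inv_eq_iff_eq_mul] at h0

omit [Finite G] in
theorem le_of_abelian {n : ℕ} (hn1 : 1 ≤ n)
    (h2 : ∀ z ∈ win x 0 t, (∀ i : ℤ, 0 ≤ i → i < t + n → Commute z (x i)) → z = 1)
    (hab : ∀ i j : ℤ, i ≤ j → j - i < t → Commute (x i) (x j)) : t ≤ n := by
  by_contra h
  have h1 := h2 (x n) (mem_win x (by omega) (by omega)) fun i h3 h4 =>
    commute_of_dist hab (by omega) (by omega)
  have := W.orderOf_eq (by omega) (n : ℤ)
  rw [h1, orderOf_one] at this
  exact W.prime.one_lt.ne this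

omit [Finite G] in
include hk hkt hc in
omit hn in
theorem two_mul_k_le {n : ℕ} (hn1 : 1 ≤ n)
    (h2 : ∀ z ∈ win x 0 t, (∀ i : ℤ, 0 ≤ i → i < t + n → Commute z (x i)) → z = 1) :
    2 * k ≤ t + n := by
  by_contra h
  have h1 := h2 (x ((k : ℤ) - 1)) (mem_win x (by omega) (by omega)) fun i h3 h4 =>
    commute_of_dist hc (by omega) (by omega)
  have := W.orderOf_eq (by omega) ((k : ℤ) - 1)
  rw [h1, orderOf_one] at this
  exact W.prime.one_lt.ne this

end IsWindow

end Cfsg.Agent.FGS79
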